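import Mathlib
import Cfsg.Agent.DefChar.QdFree

/-!
In SL₂ and in three-dimensional unitary groups over a finite field of characteristic p, the
p-elements normalizing a nontrivial p-subgroup fix a canonical flag, and so multiply to p-elements.
-/

set_option autoImplicit false

namespace CfsgLib.DefChar

open scoped Matrix
open Module

variable {G : Type*} [Group G] {p : ℕ} [Fact p.Prime] {K : Type*} [Field K] [CharP K p] {n : ℕ}

/-- Common fixed vectors of a subgroup under a matrix representation. -/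
def fixedVectors (ρ : G →* Matrix (Fin n) (Fin n) K) (P0 : Subgroup G) :
    Submodule K (Fin n → K) where
  carrier := {v | ∀ g ∈ P0, ρ g *ᵥ v = v}
  add_mem' := by
    intro v w hv hw g hg
    rw [Matrix.mulVec_add, hv g hg, hw g hg]
  zero_mem' := fun g _ => Matrix.mulVec_zero _
  smul_mem' := by
    intro c v hv g hg
    rw [Matrix.mulVec_smul, hv g hg]

lemma pElement_iff_nilpotent (ρ : G →* Matrix (Fin n) (Fin n) K) (hρ : Function.Injective ρ)
    [NeZero n] (g : G) : (∃ k : ℕ, g ^ p ^ k = 1) ↔ ∃ k : ℕ, (ρ g - 1) ^ p ^ k = 0 := by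
  refine exists_congr fun k => ?_
  rw [sub_pow_char_pow_of_commute _ _ (Commute.one_right (ρ g)), one_pow, sub_eq_zero, ← map_pow]
  exact ⟨fun h => by rw [h, map_one], fun h => hρ (h.trans (map_one ρ).symm)⟩

lemma exists_fixed_in_invariant [Finite K] (ρ : G →* Matrix (Fin n) (Fin n) K) {P0 : Subgroup G}
    (hP : IsPGroup p P0) (W : Submodule K (Fin n → K))
    (hW : ∀ g ∈ P0, ∀ v ∈ W, ρ g *ᵥ v ∈ W) (hW0 : W ≠ ⊥) :
    ∃ v ∈ W, v ≠ 0 ∧ v ∈ fixedVectors ρ P0 := by
  obtain ⟨w, hw, hw0⟩ := Submodule.exists_mem_ne_zero_of_ne_bot hW0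
  letI : MulAction P0 W :=
    { smul := fun g v => ⟨ρ g *ᵥ (v : Fin n → K), hW g g.2 v v.2⟩
      one_smul := fun v => Subtype.ext <| by
        show ρ ((1 : P0) : G) *ᵥ (v : Fin n → K) = v
        rw [Subgroup.coe_one, map_one, Matrix.one_mulVec]
      mul_smul := fun g h v => Subtype.ext <| by
        show ρ ((g * h : P0) : G) *ᵥ (v : Fin n → K) = ρ g *ᵥ (ρ h *ᵥ (v : Fin n → K))
        rw [Subgroup.coe_mul, map_mul, Matrix.mulVec_mulVec] }
  have hfix0 : (0 : W) ∈ MulAction.fixedPoints P0 W :=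
    fun g => Subtype.ext (show ρ g *ᵥ (0 : Fin n → K) = 0 from Matrix.mulVec_zero _)
  have hord : addOrderOf (⟨w, hw⟩ : W) = p := by
    apply addOrderOf_eq_prime
    · apply Subtype.ext
      rw [Submodule.coe_smul_of_tower, Submodule.coe_zero, ← Nat.cast_smul_eq_nsmul K,
        CharP.cast_eq_zero K p, zero_smul]
    · exact fun h => hw0 (congrArg Subtype.val h)
  have hdvd : p ∣ Nat.card W := hord ▸ addOrderOf_dvd_natCard (⟨w, hw⟩ : W)
  obtain ⟨b, hb, hb0⟩ := hP.exists_fixed_point_of_prime_dvd_card_of_fixed_point W hdvd hfix0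
  refine ⟨b, b.2, fun h => hb0 (Subtype.ext h.symm), fun g hg => ?_⟩
  exact congrArg Subtype.val (hb ⟨g, hg⟩)

lemma fixedVectors_ne_top (ρ : G →* Matrix (Fin n) (Fin n) K) (hρ : Function.Injective ρ)
    {P0 : Subgroup G} (hP0 : P0 ≠ ⊥) : fixedVectors ρ P0 ≠ ⊤ := by
  intro h
  apply hP0
  rw [eq_bot_iff]
  intro g hg
  rw [Subgroup.mem_bot]
  apply hρ
  rw [map_one]
  apply Matrix.ext_of_mulVec_single
  intro j
  have hmem : (Pi.single j (1 : K)) ∈ fixedVectors ρ P0 := h ▸ Submodule.mem_top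
  rw [hmem g hg, Matrix.one_mulVec]

lemma mulVec_mem_fixedVectors (ρ : G →* Matrix (Fin n) (Fin n) K) {P0 : Subgroup G} {a : G}
    (ha : a ∈ Subgroup.normalizer (P0 : Set G)) {v : Fin n → K} (hv : v ∈ fixedVectors ρ P0) :
    ρ a *ᵥ v ∈ fixedVectors ρ P0 := by
  intro g hg
  have hc : a⁻¹ * g * a ∈ P0 := by
    have h := (Subgroup.mem_normalizer_iff.mp (inv_mem ha) g).mp hg
    simpa using h
  calc ρ g *ᵥ (ρ a *ᵥ v) = ρ (a * (a⁻¹ * g * a)) *ᵥ v := by
        rw [Matrix.mulVec_mulVec, ← map_mul]; congr 2; group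
    _ = ρ a *ᵥ v := by rw [map_mul, ← Matrix.mulVec_mulVec, hv _ hc]

lemma fixes_of_pElement (ρ : G →* Matrix (Fin n) (Fin n) K) {a : G} (ha : ∃ k : ℕ, a ^ p ^ k = 1)
    {u : Fin n → K} (hu : u ≠ 0) (hline : ∃ c : K, ρ a *ᵥ u = c • u) : ρ a *ᵥ u = u := by
  obtain ⟨c, hc⟩ := hline
  obtain ⟨k, hk⟩ := ha
  have hpow : ∀ m : ℕ, ρ (a ^ m) *ᵥ u = c ^ m • u := by
    intro m
    induction m with
    | zero => simp
    | succ m ih =>
      rw [pow_succ, map_mul, ← Matrix.mulVec_mulVec, hc, Matrix.mulVec_smul, ih, smul_smul,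
        pow_succ, mul_comm]
  have h := hpow (p ^ k)
  rw [hk, map_one, Matrix.one_mulVec] at h
  have hc1 : c ^ p ^ k = 1 := by
    have h2 : (c ^ p ^ k - 1) • u = 0 := by rw [sub_smul, one_smul, ← h, sub_self]
    exact sub_eq_zero.mp ((smul_eq_zero.mp h2).resolve_right hu)
  have hc2 : (c - 1) ^ p ^ k = 0 := by rw [sub_pow_char_pow, one_pow, hc1, sub_self]
  rw [hc, sub_eq_zero.mp (eq_zero_of_pow_eq_zero hc2), one_smul]

/-- A nilpotent matrix on an invariant plane through a vector of its kernel maps it into the line. -/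
lemma nilpotent_plane (D : Matrix (Fin n) (Fin n) K) (N : ℕ) (hN : D ^ N = 0)
    (W : Submodule K (Fin n → K)) (hW2 : finrank K W ≤ 2) {u : Fin n → K} (hu : u ∈ W)
    (hu0 : u ≠ 0) (hDu : D *ᵥ u = 0) (hDW : ∀ x ∈ W, D *ᵥ x ∈ W) :
    ∀ x ∈ W, ∃ c : K, D *ᵥ x = c • u := by
  intro x hx
  by_contra hne
  push Not at hne
  have hli : LinearIndependent K ![u, D *ᵥ x] :=
    (LinearIndependent.pair_iff' hu0).mpr fun c hc => hne c hc.symm
  have hle : Submodule.span K (Set.range ![u, D *ᵥ x]) ≤ W := by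
    rw [Submodule.span_le]
    rintro _ ⟨i, rfl⟩
    fin_cases i
    · exact hu
    · exact hDW x hx
  have heq : Submodule.span K (Set.range ![u, D *ᵥ x]) = W := by
    apply Submodule.eq_of_le_of_finrank_le hle
    rw [finrank_span_eq_card hli]
    simpa using hW2
  have hxs := heq.symm ▸ hx
  rw [Submodule.mem_span_range_iff_exists_fun] at hxs
  obtain ⟨c, hc⟩ := hxs
  simp only [Fin.sum_univ_two, Matrix.cons_val_zero, Matrix.cons_val_one] at hc
  have hrec : D *ᵥ x = c 1 • (D *ᵥ (D *ᵥ x)) := by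
    conv_lhs => rw [← hc]
    rw [Matrix.mulVec_add, Matrix.mulVec_smul, Matrix.mulVec_smul, hDu, smul_zero, zero_add]
  have hiter : ∀ m : ℕ, D *ᵥ x = c 1 ^ m • ((D ^ m) *ᵥ (D *ᵥ x)) := by
    intro m
    induction m with
    | zero => simp
    | succ m ih =>
      conv_lhs => rw [ih, hrec]
      rw [Matrix.mulVec_smul, smul_smul, ← pow_succ, Matrix.mulVec_mulVec, ← pow_succ]
  refine hne 0 ?_
  rw [hiter N, hN, Matrix.zero_mulVec, smul_zero, zero_smul]

/-- Matrices `D` which are strictly triangular on the flag `⟨u⟩ ≤ W`. -/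
def StrictFlag (W : Submodule K (Fin n → K)) (u : Fin n → K) (D : Matrix (Fin n) (Fin n) K) :
    Prop :=
  D *ᵥ u = 0 ∧ (∀ x ∈ W, ∃ c : K, D *ᵥ x = c • u) ∧ ∀ x, D *ᵥ x ∈ W

lemma pElement_mul_of_strictFlag (ρ : G →* Matrix (Fin n) (Fin n) K) (hρ : Function.Injective ρ)
    [NeZero n] (W : Submodule K (Fin n → K)) (u : Fin n → K) (a b : G)
    (ha : StrictFlag W u (ρ a - 1)) (hb : StrictFlag W u (ρ b - 1)) :
    ∃ k : ℕ, (a * b) ^ p ^ k = 1 := by
  set A := ρ a - 1
  set B := ρ b - 1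
  have hE : ρ (a * b) - 1 = A * B + A + B := by
    rw [map_mul]; simp only [A, B]; noncomm_ring
  have hmul : ∀ x, (A * B + A + B) *ᵥ x = A *ᵥ (B *ᵥ x) + A *ᵥ x + B *ᵥ x := by
    intro x
    rw [Matrix.add_mulVec, Matrix.add_mulVec, Matrix.mulVec_mulVec]
  have h3 : (ρ (a * b) - 1) ^ 3 = 0 := by
    rw [hE]
    apply Matrix.ext_of_mulVec_single
    intro j
    set E := A * B + A + B with hEdef
    have h1 : ∀ x, E *ᵥ x ∈ W := fun x => by
      rw [hmul]; exact W.add_mem (W.add_mem (ha.2.2 _) (ha.2.2 _)) (hb.2.2 _)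
    have h2 : ∀ x ∈ W, ∃ c : K, E *ᵥ x = c • u := by
      intro x hx
      obtain ⟨c1, e1⟩ := ha.2.1 x hx
      obtain ⟨c2, e2⟩ := hb.2.1 x hx
      refine ⟨c1 + c2, ?_⟩
      rw [hmul, e2, Matrix.mulVec_smul, ha.1, e1, smul_zero, zero_add, add_smul]
    have h0 : E *ᵥ u = 0 := by
      rw [hmul, hb.1, ha.1, Matrix.mulVec_zero, add_zero, add_zero]
    obtain ⟨c, hc⟩ := h2 _ (h1 (Pi.single j 1))
    rw [pow_succ, pow_two, ← Matrix.mulVec_mulVec, ← Matrix.mulVec_mulVec, hc,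
      Matrix.mulVec_smul, h0, smul_zero, Matrix.zero_mulVec]
  refine (pElement_iff_nilpotent (p := p) ρ hρ _).mpr ⟨2, ?_⟩
  exact pow_eq_zero_of_le (by nlinarith [(Fact.out : p.Prime).two_le]) h3

section Two

theorem normalizerPClosed_two [Finite K] (ρ : G →* Matrix (Fin 2) (Fin 2) K)
    (hρ : Function.Injective ρ) : NormalizerPClosed p G := by
  intro P0 hP hP0 a ha b hb hap hbp
  obtain ⟨u, -, hu0, huF⟩ := exists_fixed_in_invariant ρ hP ⊤ (fun _ _ _ _ => Submodule.mem_top)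
    top_ne_bot
  have hline : ∀ v ∈ fixedVectors ρ P0, ∃ c : K, v = c • u := by
    intro v hv
    by_contra hne
    push Not at hne
    have hli : LinearIndependent K ![u, v] :=
      (LinearIndependent.pair_iff' hu0).mpr fun c hc => hne c hc.symm
    apply fixedVectors_ne_top ρ hρ hP0
    rw [eq_top_iff, ← hli.span_eq_top_of_card_eq_finrank (by simp), Submodule.span_le]
    rintro _ ⟨i, rfl⟩
    fin_cases i
    · exact huF
    · exact hv
  have key : ∀ c ∈ Subgroup.normalizer (P0 : Set G), (∃ k : ℕ, c ^ p ^ k = 1) →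
      StrictFlag ⊤ u (ρ c - 1) := by
    intro c hc hcp
    have hfix := fixes_of_pElement ρ hcp hu0 (hline _ (mulVec_mem_fixedVectors ρ hc huF))
    have hDu : (ρ c - 1) *ᵥ u = 0 := by
      rw [Matrix.sub_mulVec, hfix, Matrix.one_mulVec, sub_self]
    obtain ⟨k, hk⟩ := (pElement_iff_nilpotent ρ hρ c).mp hcp
    exact ⟨hDu, nilpotent_plane _ _ hk ⊤ (by simp) Submodule.mem_top hu0 hDu
      (fun _ _ => Submodule.mem_top), fun _ => Submodule.mem_top⟩
  exact pElement_mul_of_strictFlag ρ hρ ⊤ u a b (key a ha hap) (key b hb hbp)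

end Two

section Unitary

variable (q : ℕ)

/-- `v ↦ Σ v_i w_i^q`. -/
def hermLeft (w : Fin n → K) : (Fin n → K) →ₗ[K] K where
  toFun v := ∑ i, v i * w i ^ q
  map_add' := by
    intro v w
    simp [add_mul, Finset.sum_add_distrib]
  map_smul' := by
    intro c v
    simp [Finset.mul_sum, mul_assoc]

theorem normalizerPClosed_three [Finite K] (m : ℕ) (ρ : G →* Matrix (Fin 3) (Fin 3) K)
    (hρ : Function.Injective ρ)
    (hiso : ∀ g u v, hermLeft (p ^ m) (ρ g *ᵥ v) (ρ g *ᵥ u) = hermLeft (p ^ m) v u) :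
    NormalizerPClosed p G := by
  intro P0 hP hP0 a ha b hb hap hbp
  set F := fixedVectors ρ P0
  let Fp : Submodule K (Fin 3 → K) := ⨅ f : F, LinearMap.ker (hermLeft (p ^ m) (f : Fin 3 → K))
  have memFp : ∀ v, v ∈ Fp ↔ ∀ f ∈ F, hermLeft (p ^ m) f v = 0 := by
    intro v
    simp [Fp, Submodule.mem_iInf]
  have hFpinv : ∀ g ∈ Subgroup.normalizer (P0 : Set G), ∀ v ∈ Fp, ρ g *ᵥ v ∈ Fp := by
    intro g hg v hv
    rw [memFp] at hv ⊢
    intro f hf
    have h := hiso g v (ρ g⁻¹ *ᵥ f)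
    rw [Matrix.mulVec_mulVec, ← map_mul, mul_inv_cancel, map_one, Matrix.one_mulVec] at h
    rw [h]
    exact hv _ (mulVec_mem_fixedVectors ρ (inv_mem hg) hf)
  have hR : F ⊓ Fp ≠ ⊥ := by
    intro hR
    have hFp : Fp = ⊥ := by
      by_contra hne
      obtain ⟨v, hv, hv0, hvF⟩ := exists_fixed_in_invariant ρ hP Fp
        (fun g hg => hFpinv g (Subgroup.le_normalizer hg)) hne
      exact hv0 ((Submodule.mem_bot K).mp (hR ▸ ⟨hvF, hv⟩))
    apply fixedVectors_ne_top ρ hρ hP0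
    let bF := Module.finBasis K F
    let T : (Fin 3 → K) →ₗ[K] (Fin (finrank K F) → K) :=
      LinearMap.pi fun i => hermLeft (p ^ m) (bF i : Fin 3 → K)
    have hT : Function.Injective T := by
      rw [← LinearMap.ker_eq_bot, ← le_bot_iff, ← hFp]
      intro v hv
      rw [memFp]
      intro f hf
      have hrepr := congrArg Subtype.val (bF.sum_repr ⟨f, hf⟩)
      simp only [Submodule.coe_sum, Submodule.coe_smul] at hrepr
      rw [← hrepr]
      have h0 : ∀ i, hermLeft (p ^ m) (bF i : Fin 3 → K) v = 0 := fun i => congrFun hv i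
      simp only [hermLeft, LinearMap.coe_mk, AddHom.coe_mk] at h0 ⊢
      simp only [Finset.sum_apply, Pi.smul_apply, smul_eq_mul, sum_pow_char_pow, mul_pow,
        Finset.mul_sum]
      rw [Finset.sum_comm]
      refine Finset.sum_eq_zero fun i _ => ?_
      have : ∀ j, v j * ((bF.repr ⟨f, hf⟩) i ^ p ^ m * (bF i : Fin 3 → K) j ^ p ^ m)
          = (bF.repr ⟨f, hf⟩) i ^ p ^ m * (v j * (bF i : Fin 3 → K) j ^ p ^ m) :=
        fun j => by ring
      simp only [this, ← Finset.mul_sum, h0 i, mul_zero]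
    have h3 := LinearMap.finrank_le_finrank_of_injective hT
    rw [finrank_fin_fun, finrank_fin_fun] at h3
    have h4 := Submodule.finrank_le F
    rw [finrank_fin_fun] at h4
    refine Submodule.eq_top_of_finrank_eq ?_
    rw [finrank_fin_fun]
    exact le_antisymm h4 h3
  obtain ⟨u, ⟨huF, huP⟩, hu0⟩ := Submodule.exists_mem_ne_zero_of_ne_bot hR
  have hiso0 : ∀ v ∈ F ⊓ Fp, ∀ w ∈ F ⊓ Fp, hermLeft (p ^ m) w v = 0 :=
    fun v hv w hw => (memFp v).mp hv.2 w hw.1
  have hker : ∀ (w : Fin 3 → K) (j : Fin 3),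
      hermLeft (p ^ m) w (Pi.single j 1) = w j ^ p ^ m := by
    intro w j
    simp [hermLeft, Pi.single_apply]
  have hq : p ^ m ≠ 0 := pow_ne_zero _ (Fact.out : p.Prime).ne_zero
  obtain ⟨i, hi⟩ : ∃ i, u i ≠ 0 := Function.ne_iff.mp hu0
  have hline : ∀ v ∈ F ⊓ Fp, ∃ c : K, v = c • u := by
    intro v hv
    refine ⟨v i / u i, ?_⟩
    by_contra hne
    set w := v - (v i / u i) • u with hw
    have hwR : w ∈ F ⊓ Fp := Submodule.sub_mem _ hv (Submodule.smul_mem _ _ ⟨huF, huP⟩)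
    have hw0 : w ≠ 0 := sub_ne_zero.mpr hne
    have hwi : w i = 0 := by simp [hw, hi]
    obtain ⟨j, hj⟩ : ∃ j, w j ≠ 0 := Function.ne_iff.mp hw0
    let T : (Fin 3 → K) →ₗ[K] K × K := (hermLeft (p ^ m) u).prod (hermLeft (p ^ m) w)
    have hsurj : Function.Surjective T := by
      rintro ⟨s, t⟩
      refine ⟨((s - t / w j ^ p ^ m * u j ^ p ^ m) / u i ^ p ^ m) • Pi.single i 1 +
        (t / w j ^ p ^ m) • Pi.single j 1, ?_⟩
      have h1 : u i ^ p ^ m ≠ 0 := pow_ne_zero _ hi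
      have h2 : w j ^ p ^ m ≠ 0 := pow_ne_zero _ hj
      refine Prod.ext ?_ ?_
      · show hermLeft (p ^ m) u _ = s
        simp only [map_add, map_smul, hker, smul_eq_mul]
        field_simp
        ring
      · show hermLeft (p ^ m) w _ = t
        simp only [map_add, map_smul, hker, smul_eq_mul, hwi,
          zero_pow hq, mul_zero, zero_add]
        field_simp
    have hk := T.finrank_range_add_finrank_ker
    rw [LinearMap.range_eq_top.mpr hsurj, finrank_top, finrank_prod, finrank_self,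
      finrank_fintype_fun_eq_card, Fintype.card_fin] at hk
    have hli : LinearIndependent K ![u, w] := (LinearIndependent.pair_iff' hu0).mpr fun c hc => by
      have h := congrFun hc i
      rw [Pi.smul_apply, smul_eq_mul, hwi, mul_eq_zero] at h
      exact hw0 (by rw [← hc, h.resolve_right hi, zero_smul])
    have hsub : Submodule.span K (Set.range ![u, w]) ≤ LinearMap.ker T := by
      rw [Submodule.span_le]
      rintro _ ⟨l, rfl⟩
      fin_cases l
      · exact Prod.ext (hiso0 u ⟨huF, huP⟩ u ⟨huF, huP⟩) (hiso0 u ⟨huF, huP⟩ w hwR)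
      · exact Prod.ext (hiso0 w hwR u ⟨huF, huP⟩) (hiso0 w hwR w hwR)
    have := Submodule.finrank_mono hsub
    rw [finrank_span_eq_card hli, Fintype.card_fin] at this
    omega
  let W := LinearMap.ker (hermLeft (p ^ m) u)
  have hW2 : finrank K W ≤ 2 := by
    have hne : hermLeft (p ^ m) u ≠ 0 := by
      intro h
      have := hker u i
      rw [h, LinearMap.zero_apply] at this
      exact pow_ne_zero _ hi this.symm
    have hk := (hermLeft (p ^ m) u).finrank_range_add_finrank_ker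
    rw [LinearMap.range_eq_top.mpr (LinearMap.surjective hne), finrank_top, finrank_self,
      finrank_fintype_fun_eq_card, Fintype.card_fin] at hk
    show finrank K (LinearMap.ker (hermLeft (p ^ m) u)) ≤ 2
    omega
  have huW : u ∈ W := hiso0 u ⟨huF, huP⟩ u ⟨huF, huP⟩
  have key : ∀ c ∈ Subgroup.normalizer (P0 : Set G), (∃ k : ℕ, c ^ p ^ k = 1) →
      StrictFlag W u (ρ c - 1) := by
    intro c hc hcp
    have hfix := fixes_of_pElement ρ hcp hu0
      (hline _ ⟨mulVec_mem_fixedVectors ρ hc huF, hFpinv c hc u huP⟩)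
    have hDu : (ρ c - 1) *ᵥ u = 0 := by
      rw [Matrix.sub_mulVec, hfix, Matrix.one_mulVec, sub_self]
    have hDW : ∀ x, (ρ c - 1) *ᵥ x ∈ W := by
      intro x
      show hermLeft (p ^ m) u ((ρ c - 1) *ᵥ x) = 0
      rw [Matrix.sub_mulVec, Matrix.one_mulVec, map_sub]
      have h := hiso c x u
      rw [hfix] at h
      rw [h, sub_self]
    obtain ⟨k, hk⟩ := (pElement_iff_nilpotent ρ hρ c).mp hcp
    exact ⟨hDu, nilpotent_plane _ _ hk W hW2 huW hu0 hDu (fun x _ => hDW x), hDW⟩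
  exact pElement_mul_of_strictFlag ρ hρ W u a b (key a ha hap) (key b hb hbp)

end Unitary

end CfsgLib.DefChar
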